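import Cfsg.Agent.H28.TwOv.Stage
import Cfsg.Agent.H82.TwE6
import Cfsg.Agent.H225.TwOv.Fld

/-!
# The overgroup theorem for `²E₆`: tables, independence, real root elements (S2187, X6, helper225)

* `ind_e6` (E1); `pos71`, `max71`, `climb71`, `climb71'`, `car71_rho`, `eps_one`, `stp0`, `stp1`, `stp2`, `wact_ne`, `wact_71` (E2);
* `OvE6` : the context: `H ≤ ²E₆(q)` contains the elements of `U` fixed by `ψ` and the `n i`;
* `OvE6.neg_mem`, `OvE6.real_mem`, `sg_real` (E3); `OvE6.clsP` (E4).
-/

set_option autoImplicit false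
set_option linter.unusedSectionVars false

namespace Cfsg.Agent.H225.TwOv

open Cfsg.Lie Cfsg.Agent.H82.Level Cfsg.Agent.H82.TwMax Cfsg.Agent.ChevalleyStructure Cfsg.Agent.H82.TwE6
open Cfsg.Agent.ChevalleyStructure.RootCombGood (co car)
open Cfsg.Agent.ChevalleyStructure.RootWord (wact)
open Cfsg.Agent.ChevalleyStructure.TwistedU
open Cfsg.Agent.ChevalleyStructure.TwistedE6Sigma (rho eps rho_rho eps_rho eps_sq eps_of_rho_eq)
open Cfsg.Agent.ChevalleyStructure.TwistedE6U (L)
open Cfsg.Agent.ChevalleyStructure.TwE6Basic (hE6 sg fix mem_fix n posE negE nE)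
open Cfsg.Agent.ChevalleyStructure.TwE6BN (rs x_mem_rs rs_le conj_rs acts_n VJ VJ_le)
open Cfsg.Agent.H28.TwOv
open scoped commutatorElement

universe u

/-! ### tables -/

theorem pos71 : chevE6.IsPosRoot 71 := by decide +kernel

theorem max71 : ∀ r, chevE6.IsPosRoot r → r ≠ 71 → ht chevE6 r < ht chevE6 71 := by
  have : ∀ r ∈ L.flatten, r ≠ 71 → ht chevE6 r < ht chevE6 71 := by decide +kernel
  exact fun r hr => this r (mem_of_pos hr)

theorem climb71 : ∀ r ∈ L.flatten, r ≠ 71 → ∃ j ∈ L.flatten, add chevE6 j r < chevE6.nroots := by decide +kernel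

theorem car71_rho : ∀ r < chevE6.nroots, chevE6.IsPosRoot r →
    car chevE6 (chevE6.nroots - 1) (rho r) = car chevE6 (chevE6.nroots - 1) r := by decide +kernel

theorem climb71' : ∀ r ∈ L.flatten, r ≠ 71 → ∃ j ∈ L.flatten, car chevE6 (chevE6.nroots - 1) j = 1 ∧
    add chevE6 j r < chevE6.nroots := by decide +kernel

theorem eps_one : ∀ r ∈ L.flatten, ht chevE6 r = 1 → eps r = 1 := by decide +kernel

theorem rho_mem : ∀ r ∈ L.flatten, rho r ∈ L.flatten := by decide +kernel

theorem stp0 : StageP chevE6 rho cl [71, 70] [] 71 := by decide +kernel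

theorem stp1 : StageP chevE6 rho cl [] [71] 70 := by decide +kernel

theorem stp2 : StageP chevE6 rho cl [] [71, 70] 69 := by decide +kernel

theorem wact_ne : ∀ o ∈ cl, ∀ γ < 72, (∀ j ∈ o, car chevE6 (chevE6.simple j) γ < 0) → wact chevE6 o γ ≠ 0 := by
  decide +kernel

theorem wact_71 : ∀ o ∈ cl, (∀ j ∈ o, car chevE6 (chevE6.simple j) 71 = 0) → wact chevE6 o 71 = 71 := by
  decide +kernel

section Ind

variable {K : Type u} [Field K] [Fintype K] {r a p q q0 : ℕ} {φ ψ : K →+* K} (F : FD r a p q q0 φ ψ)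

include F in
/-- **E1.** -/
theorem ind_e6 : Ind chevE6 L.flatten rho eps φ ψ := by
  intro j hj B hB
  have hlt : ∀ r ∈ L.flatten, r < 72 := by decide
  have hj72 := hlt j hj
  have hrr := rho_rho j hj72
  have hee := eps_rho j hj72
  have hsq := eps_sq j hj72
  have hht : ht chevE6 (rho j) = ht chevE6 j := twE6.rho_ht j hj72
  have hsqK : (eps j : K) * (eps j : K) = 1 := by exact_mod_cast congrArg (Int.cast : ℤ → K) hsq
  have hinj : ∀ s ∈ L.flatten, rho s = j → s = rho j := fun s hs h => by rw [← h, rho_rho s (hlt s hs)]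
  have hinj' : ∀ s ∈ L.flatten, rho s = rho j → s = j := fun s hs h => by
    rw [← rho_rho s (hlt s hs), h, hrr]
  by_cases e : rho j = j
  · have he1 := eps_of_rho_eq j hj72 e
    have h1 := hB (fun s => if s = j then 1 else 0) (by
      intro s hs
      beta_reduce
      by_cases h : s = j
      · rw [h, e, if_pos rfl, he1, Int.cast_one, map_one, mul_one]
      · rw [if_neg h, if_neg (fun h' => h ((hinj s hs h').trans e)), map_zero, mul_zero]) (by
      intro s
      beta_reduce
      split_ifs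
      · exact map_one _
      · exact map_zero _) (by
      intro s _ hs
      beta_reduce
      rw [if_neg]
      rintro rfl
      exact hs 0 rfl)
    rw [Finset.sum_eq_single j] at h1
    · rw [if_pos rfl, one_mul] at h1
      exact h1
    · intro s _ hs
      rw [if_neg hs, zero_mul]
    · intro h
      exact absurd (List.mem_toFinset.2 hj) h
  · have key : ∀ c : K, ψ c = c → c * B j + (eps j : K) * φ c * B (rho j) = 0 := by
      intro c hc
      have h1 := hB (fun s => if s = j then c else if s = rho j then (eps j : K) * φ c else 0) (by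
        intro s hs
        beta_reduce
        by_cases h : s = j
        · rw [h, if_neg e, if_pos rfl, if_pos rfl]
        · by_cases h' : s = rho j
          · rw [h', hrr, if_pos rfl, if_neg e, if_pos rfl, hee, map_mul, map_intCast, F.hφφ, ← mul_assoc, hsqK, one_mul]
          · rw [if_neg (fun h2 => h' (hinj s hs h2)), if_neg (fun h2 => h (hinj' s hs h2)), if_neg h, if_neg h',
              map_zero, mul_zero]) (by
        intro s
        beta_reduce
        split_ifs
        · exact hc
        · rw [map_mul, map_intCast, F.comm, hc]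
        · exact map_zero _) (by
        intro s _ hs
        beta_reduce
        rw [if_neg, if_neg]
        · rintro rfl
          exact hs 1 rfl
        · rintro rfl
          exact hs 0 rfl)
      rw [Finset.sum_eq_add (a := j) (b := rho j) (Ne.symm e)] at h1
      · rw [if_pos rfl, if_neg e, if_pos rfl] at h1
        exact h1
      · rintro s _ ⟨h2, h3⟩
        rw [if_neg h2, if_neg h3, zero_mul]
      · intro h
        exact absurd (List.mem_toFinset.2 hj) h
      · intro h
        exact absurd (List.mem_toFinset.2 (rho_mem j hj)) h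
    obtain ⟨κ, h1, h2⟩ := F.exists_kap
    have h3 := key 1 (map_one ψ)
    have h4 := key κ h1
    rw [map_one, mul_one, one_mul] at h3
    have h5 : (κ - φ κ) * B j = 0 := by linear_combination h4 - φ κ * h3
    rcases mul_eq_zero.1 h5 with h6 | h6
    · exact absurd (sub_eq_zero.1 h6).symm h2
    · exact h6

end Ind

/-! ### the context -/

/-- the context -/
structure OvE6 {K : Type u} [Field K] [Fintype K] (r a p q q0 : ℕ) (φ ψ : K →+* K) (H : Subgroup (GL chevE6.Idx K)) :
    Prop extends FD r a p q q0 φ ψ where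
  le : H ≤ twistedE6 K q
  memU : ∀ u ∈ chevE6.posUnipotent K, sg φ u = u → fr chevE6 ψ u = u → u ∈ H
  mem_n : ∀ i, n (K := K) i ∈ H

section Real

variable {K : Type u} [Field K]

/-- the real root elements -/
theorem sg_real (φ : K →+* K) {r : ℕ} (hr : r < 72) (h : rho r = r) (c : K) : sg φ (X r c) = X r (φ c) := by
  have h1 : sg φ (X r c) = X (rho r) ((eps r : K) * φ c) := TwistedE6U.sig_X φ hr c
  rw [h1, h, eps_of_rho_eq r hr h, Int.cast_one, one_mul]

theorem fr_n (ψ : K →+* K) (i : Fin 4) : fr chevE6 ψ (n (K := K) i) = n i := by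
  rw [TwE6Basic.n_def, map_list_prod, List.map_map]
  congr 1
  refine List.map_congr_left fun j _ => ?_
  exact fr_nG ψ hE6 _

/-- the word of the longest element -/
def wl : List (Fin 4) := [0, 1, 2, 3, 0, 1, 2, 3, 0, 1, 2, 3, 0, 1, 2, 3, 0, 1, 2, 3, 0, 1, 2, 3]

/-- products of the `n i` -/
noncomputable def nl (K : Type u) [Field K] (l : List (Fin 4)) : GL chevE6.Idx K := (l.map fun i => n (K := K) i).prod

/-- the action on the roots -/
def wpl (l : List (Fin 4)) (s : ℕ) : ℕ := l.foldr (fun i s => TwE6Basic.wp i s) s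

theorem wpl_lt (l : List (Fin 4)) {s : ℕ} (hs : s < 72) : wpl l s < 72 := by
  induction l with
  | nil => exact hs
  | cons i l ih => exact TwE6Basic.wp_lt i ⟨_, ih⟩

theorem nl_conj (l : List (Fin 4)) {s : ℕ} (hs : s < 72) : ∃ η : K, η ≠ 0 ∧ ∀ t : K,
    nl K l * X s t * (nl K l)⁻¹ = X (wpl l s) (η * t) := by
  induction l with
  | nil => exact ⟨1, one_ne_zero, fun t => by simp [nl, wpl]⟩
  | cons i l ih =>
    obtain ⟨η, hη, h⟩ := ih
    obtain ⟨η', hη', h'⟩ := TwE6Basic.n_conj (K := K) i (wpl_lt l hs)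
    refine ⟨η' * η, mul_ne_zero hη' hη, fun t => ?_⟩
    have e : nl K (i :: l) * X s t * (nl K (i :: l))⁻¹ = n (K := K) i * (nl K l * X s t * (nl K l)⁻¹) * (n (K := K) i)⁻¹ := by
      unfold nl
      rw [List.map_cons, List.prod_cons]
      group
    rw [e, h, mul_assoc η' η t]
    exact h' _

theorem fr_nl (ψ : K →+* K) (l : List (Fin 4)) : fr chevE6 ψ (nl K l) = nl K l := by
  unfold nl
  rw [map_list_prod, List.map_map]
  congr 1
  refine List.map_congr_left fun j _ => ?_
  exact fr_n ψ j

theorem wl_pos : ∀ s < 36, chevE6.IsPosRoot (wpl wl s) := by decide +kernel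

end Real

namespace OvE6

variable {K : Type u} [Field K] [Fintype K] {r a p q q0 : ℕ} {φ ψ : K →+* K} {H : Subgroup (GL chevE6.Idx K)}
  (V : OvE6 r a p q q0 φ ψ H)

include V

theorem tw : Tw hE6 slE6 L rho eps φ (sg φ) (twistedE6 K q) :=
  Cfsg.Agent.H82.TwE6.tw V.hφ V.hφφ

theorem nl_mem (l : List (Fin 4)) : nl K l ∈ H := by
  unfold nl
  refine Subgroup.list_prod_mem _ fun x hx => ?_
  obtain ⟨i, -, rfl⟩ := List.mem_map.1 hx
  exact V.mem_n i

theorem G_fix {g : GL chevE6.Idx K} (hg : g ∈ twistedE6 K q) : sg φ g = g := V.tw.G_fix g hg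

/-- fixed products of root elements of negative roots -/
theorem neg_mem {g : GL chevE6.Idx K} (hg : sg φ g = g) (hf : fr chevE6 ψ g = g)
    (hn : g ∈ Subgroup.closure {y | ∃ s < 36, ∃ t : K, y = X s t}) : g ∈ H := by
  have hm := V.nl_mem wl
  have hmG := V.le hm
  have h1 : nl K wl * g * (nl K wl)⁻¹ ∈ chevE6.posUnipotent K := by
    have h2 : Subgroup.closure {y | ∃ s < 36, ∃ t : K, y = X s t} ≤
        (chevE6.posUnipotent K).comap (MulAut.conj (nl K wl)).toMonoidHom := by
      refine (Subgroup.closure_le _).2 ?_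
      rintro _ ⟨s, hs, t, rfl⟩
      show nl K wl * X s t * (nl K wl)⁻¹ ∈ chevE6.posUnipotent K
      obtain ⟨η, -, h3⟩ := nl_conj (K := K) wl (s := s) (by omega)
      rw [h3]
      exact Elts.xG_mem_posUnipotent hE6 (wl_pos s hs) _
    exact h2 hn
  have h2 : nl K wl * g * (nl K wl)⁻¹ ∈ H := by
    refine V.memU _ h1 ?_ ?_
    · rw [map_mul, map_mul, map_inv, V.G_fix hmG, hg]
    · rw [map_mul, map_mul, map_inv, fr_nl, hf]
  have e : g = (nl K wl)⁻¹ * (nl K wl * g * (nl K wl)⁻¹) * nl K wl := by group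
  rw [e]
  exact mul_mem (mul_mem (inv_mem hm) h2) hm

/-- **E3.** -/
theorem real_mem {s : ℕ} (hs : s < 72) (h : rho s = s) {c : K} (h1 : φ c = c) (h2 : ψ c = c) : X s c ∈ H := by
  have h3 : sg φ (X s c) = X s c := by rw [sg_real φ hs h, h1]
  have h4 : fr chevE6 ψ (X s c) = X s c := by rw [fr_X, h2]
  by_cases h5 : s < 36
  · exact V.neg_mem h3 h4 (Subgroup.subset_closure ⟨s, h5, c, rfl⟩)
  · have h6 : chevE6.IsPosRoot s := by
      have : ∀ s < 72, ¬ s < 36 → chevE6.IsPosRoot s := by decide +kernel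
      exact this s hs h5
    exact V.memU _ (Elts.xG_mem_posUnipotent hE6 h6 c) h3 h4

/-- **E4.** -/
theorem clsP : ClsP rho (twistedE6 K q) ψ TwE6Basic.J (n (K := K)) H where
  rho_lt := twE6.rho_lt
  J_ne := by decide
  J_orth := by decide +kernel
  nhW := (cls V.hφ V.hφφ).nhW
  nh_fr := fr_n ψ
  nh_mem := V.mem_n
  split := by
    intro i u hu huG hc
    have hqq : ∀ t : K, (t ^ q) ^ q = t := fun t => by rw [← V.hφ, ← V.hφ, V.hφφ]
    obtain ⟨v, hv, y, hy, hyG, rfl⟩ := TwE6BN.decomp φ V.hφ hqq i hu huG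
    have hvG : v ∈ twistedE6 K q := by
      have e : v = (v * y) * y⁻¹ := by group
      rw [e]
      exact mul_mem huG (inv_mem hyG)
    have hyU : y ∈ chevE6.posUnipotent K := TwE6BN.rs_posE_le i hy
    have hvU : v ∈ chevE6.posUnipotent K := TwE6BN.VJ_le_U i hv
    have hcf : ∀ j ∈ TwE6Basic.J i, ψ (cf (chevE6.simple j) y) = cf (chevE6.simple j) y := by
      intro j hj
      have h1 := hc j hj
      have h2 := (TwE6Basic.J_mem i j hj).2
      have h3 : ∀ i : Fin 4, ∀ r ∈ posE i, ht chevE6 r = 1 := by decide +kernel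
      rw [cf_mul_left hE6 slE6 (by rw [h3 i _ h2, Lv_one]; exact hvU) hyU, cf_VJ h2 hv, zero_add] at h1
      exact h1
    have key : fr chevE6 ψ y = y := by
      fin_cases i
      · obtain ⟨t, rfl⟩ := TwE6BN.rs_single (r := 46) hy
        have h4 := hcf 1 (by decide)
        rw [simples.2.1, ← X_eq, cf_X (by norm_num) (by norm_num), if_pos rfl] at h4
        rw [← X_eq, fr_X, h4]
      · obtain ⟨t, rfl⟩ := TwE6BN.rs_single (r := 39) hy
        have h4 := hcf 3 (by decide)
        rw [simples.2.2.2.1, ← X_eq, cf_X (by norm_num) (by norm_num), if_pos rfl] at h4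
        rw [← X_eq, fr_X, h4]
      · obtain ⟨t, s, rfl⟩ := TwE6BN.PairOK.mem_pos TwE6BN.pair2 hy
        have h4 := hcf 2 (by decide)
        have h5 := hcf 4 (by decide)
        rw [simples.2.2.1, ← X_eq, ← X_eq, cf_pair (by decide) (by decide) (by decide)] at h4
        rw [simples.2.2.2.2.1, ← X_eq, ← X_eq, cf_pair (by decide) (by decide) (by decide)] at h5
        norm_num at h4 h5
        rw [← X_eq, ← X_eq, map_mul, fr_X, fr_X, h4, h5]
      · obtain ⟨t, s, rfl⟩ := TwE6BN.PairOK.mem_pos TwE6BN.pair3 hy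
        have h4 := hcf 0 (by decide)
        have h5 := hcf 5 (by decide)
        rw [simples.1, ← X_eq, ← X_eq, cf_pair (by decide) (by decide) (by decide)] at h4
        rw [simples.2.2.2.2.2, ← X_eq, ← X_eq, cf_pair (by decide) (by decide) (by decide)] at h5
        norm_num at h4 h5
        rw [← X_eq, ← X_eq, map_mul, fr_X, fr_X, h4, h5]
    exact ⟨v, y, V.memU y hyU (V.G_fix hyG) key, key, hvG, (TwE6BN.T φ q V.hφ hqq).conj_V i v hv, rfl⟩

/-- the hypotheses on the unipotent part -/
theorem ovh (hX : ∀ t : K, X 71 t ∈ H → ψ t = t) : OvH V.tw ψ 71 H where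
  ind := ind_e6 V.toFD
  top_pos := pos71
  max := max71
  climb := climb71
  le := V.le
  memU := V.memU
  memX := hX

end OvE6

end Cfsg.Agent.H225.TwOv
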